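import Cfsg.Agent.AbFree.Main

/-!
# 2-blocks with homocyclic defect group of rank two (owner: helper78)
-/

set_option autoImplicit false
set_option linter.unusedSectionVars false
set_option linter.style.haveILetI false

universe u

namespace Cfsg.Agent.AbFree

section aut

variable {Q : Type u} [Group Q]

theorem aut_fix_pow (hcomm : ∀ a b : Q, a * b = b * a) {σ : MulAut Q} {n : ℕ} (hn : ¬ 2 ∣ n)
    (hσ : σ ^ n = 1) (h : ∀ x, x ^ 2 = 1 → σ x = x) (k : ℕ) :
    ∀ x : Q, x ^ (2 ^ k) = 1 → σ x = x := by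
  induction k with
  | zero =>
    intro x hx
    rw [pow_zero, pow_one] at hx
    rw [hx, map_one]
  | succ k ih =>
    intro x hx
    have h1 : (x ^ 2) ^ (2 ^ k) = 1 := by rw [← pow_mul, ← pow_succ']; exact hx
    have h2 := ih _ h1
    obtain ⟨t, ht⟩ : ∃ t, t = σ x * x⁻¹ := ⟨_, rfl⟩
    have h3 : t ^ 2 = 1 := by
      rw [ht, (show Commute (σ x) x⁻¹ from hcomm _ _).mul_pow, ← map_pow, h2, inv_pow,
        mul_inv_cancel]
    have h4 := h t h3
    have h5 : σ x = t * x := by rw [ht]; group
    have h6 : ∀ j : ℕ, (σ ^ j) x = t ^ j * x := by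
      intro j
      induction j with
      | zero => rw [pow_zero, pow_zero, MulAut.one_apply, one_mul]
      | succ j ihj =>
        rw [pow_succ', MulAut.mul_apply, ihj, map_mul, map_pow, h4, h5, pow_succ, mul_assoc]
    have h7 := h6 n
    rw [hσ, MulAut.one_apply] at h7
    have h8 : t ^ n = 1 := by
      have := mul_eq_right.1 h7.symm
      exact this
    have h9 : t = 1 := by
      have h10 : Nat.Coprime 2 n := (Nat.prime_two.coprime_iff_not_dvd).2 hn
      have h11 : orderOf t ∣ 1 := by
        rw [← h10]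
        exact Nat.dvd_gcd (orderOf_dvd_of_pow_eq_one h3) (orderOf_dvd_of_pow_eq_one h8)
      exact orderOf_eq_one_iff.1 (Nat.dvd_one.1 h11)
    rw [h5, h9, one_mul]

/-- an automorphism of odd order of a 2-group with at most four solutions of `x² = 1` is
trivial or fixed point free -/
theorem aut_free [Finite Q] (hcomm : ∀ a b : Q, a * b = b * a) {m : ℕ} (hQ : Nat.card Q = 2 ^ m)
    (h4 : Nat.card {x : Q // x ^ 2 = 1} ≤ 4) {σ : MulAut Q} {n : ℕ} (hn : ¬ 2 ∣ n)
    (hσ : σ ^ n = 1) {v : Q} (hv : v ≠ 1) (hfix : σ v = v) : σ = 1 := by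
  classical
  haveI := Fintype.ofFinite Q
  have hpow : ∀ x : Q, x ^ (2 ^ m) = 1 := fun x => by rw [← hQ]; exact pow_card_eq_one'
  -- an involution fixed by `σ`
  obtain ⟨t, ht1, ht2, htf⟩ : ∃ t : Q, t ≠ 1 ∧ t ^ 2 = 1 ∧ σ t = t := by
    have hex : ∃ k, v ^ (2 ^ k) = 1 := ⟨m, hpow v⟩
    obtain ⟨k, hk⟩ : ∃ k, k = Nat.find hex := ⟨_, rfl⟩
    have hk1 := Nat.find_spec hex
    rw [← hk] at hk1
    have hk0 : k ≠ 0 := by
      rintro rfl
      rw [pow_zero, pow_one] at hk1
      exact hv hk1
    obtain ⟨j, rfl⟩ := Nat.exists_eq_succ_of_ne_zero hk0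
    refine ⟨v ^ (2 ^ j), ?_, ?_, ?_⟩
    · have := Nat.find_min hex (m := j) (by rw [← hk]; exact Nat.lt_succ_self j)
      exact this
    · rw [← pow_mul, ← pow_succ]; exact hk1
    · rw [map_pow, hfix]
  -- `σ²` fixes the solutions of `x² = 1`
  have hinv : ∀ s : Q, s ^ 2 = 1 → σ (σ s) = s := by
    intro s hs
    by_cases hs1 : s = 1
    · rw [hs1, map_one, map_one]
    by_cases hst : s = t
    · rw [hst, htf, htf]
    have hts2 : (t * s) ^ 2 = 1 := by
      rw [(show Commute t s from hcomm _ _).mul_pow, ht2, hs, one_mul]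
    have hts1 : t * s ≠ 1 := by
      intro h
      apply hst
      have h1 : t * t = 1 := by rw [← pow_two]; exact ht2
      exact mul_left_cancel (h.trans h1.symm)
    have htst : t * s ≠ t := fun h => hs1 (mul_eq_left.1 h)
    have htss : t * s ≠ s := fun h => ht1 (mul_eq_right.1 h)
    have hset : ({1, t, s, t * s} : Finset Q).card = 4 := by
      rw [Finset.card_insert_of_notMem, Finset.card_insert_of_notMem,
        Finset.card_insert_of_notMem, Finset.card_singleton]
      · rw [Finset.mem_singleton]; exact htss.symm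
      · rw [Finset.mem_insert, Finset.mem_singleton]
        rintro (h | h)
        · exact hst h.symm
        · exact htst h.symm
      · rw [Finset.mem_insert, Finset.mem_insert, Finset.mem_singleton]
        rintro (h | h | h)
        · exact ht1 h.symm
        · exact hs1 h.symm
        · exact hts1 h.symm
    have hsub : ({1, t, s, t * s} : Finset Q) ⊆ Finset.univ.filter (fun x : Q => x ^ 2 = 1) := by
      intro x hx
      rw [Finset.mem_insert, Finset.mem_insert, Finset.mem_insert, Finset.mem_singleton] at hx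
      rw [Finset.mem_filter]
      refine ⟨Finset.mem_univ _, ?_⟩
      rcases hx with rfl | rfl | rfl | rfl
      · exact one_pow 2
      · exact ht2
      · exact hs
      · exact hts2
    have hcard : (Finset.univ.filter (fun x : Q => x ^ 2 = 1)).card ≤ 4 := by
      rw [Nat.card_eq_fintype_card, Fintype.card_subtype] at h4
      exact h4
    have heq := Finset.eq_of_subset_of_card_le hsub (by rw [hset]; exact hcard)
    have hmem : σ s ∈ ({1, t, s, t * s} : Finset Q) := by
      rw [heq, Finset.mem_filter]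
      refine ⟨Finset.mem_univ _, ?_⟩
      rw [← map_pow, hs, map_one]
    rw [Finset.mem_insert, Finset.mem_insert, Finset.mem_insert, Finset.mem_singleton] at hmem
    rcases hmem with h | h | h | h
    · exfalso
      apply hs1
      rw [← map_one σ] at h
      exact σ.injective h
    · exfalso
      apply hst
      have h' : σ s = σ t := h.trans htf.symm
      exact σ.injective h'
    · rw [h, h]
    · rw [h, map_mul, htf, h, ← mul_assoc, ← pow_two, ht2, one_mul]
  have hfixall : ∀ s : Q, s ^ 2 = 1 → σ s = s := by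
    intro s hs
    have h1 : ∀ j : ℕ, (σ ^ (2 * j)) s = s := by
      intro j
      induction j with
      | zero => rw [mul_zero, pow_zero, MulAut.one_apply]
      | succ j ih =>
        have : 2 * (j + 1) = 2 * j + 2 := by ring
        rw [this, pow_add, MulAut.mul_apply, pow_two, MulAut.mul_apply, hinv s hs, ih]
    obtain ⟨j, hj⟩ : ∃ j, n + 1 = 2 * j := by
      have : n % 2 = 1 := by omega
      exact ⟨(n + 1) / 2, by omega⟩
    have h2 := h1 j
    rw [← hj, pow_succ, hσ, one_mul] at h2
    exact h2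
  ext x
  rw [MulAut.one_apply]
  exact aut_fix_pow hcomm hn hσ hfixall m x (hpow x)

theorem card_sq_le {A B : Type*} [Group A] [Group B] [Finite A] [Finite B] [IsCyclic A]
    [IsCyclic B] {D : Type u} [Group D] (φ : D ≃* A × B) :
    Nat.card {x : D // x ^ 2 = 1} ≤ 4 := by
  classical
  haveI := Fintype.ofFinite A
  haveI := Fintype.ofFinite B
  have h1 : (Finset.univ.filter (fun a : A => a ^ 2 = 1)).card ≤ 2 :=
    IsCyclic.card_pow_eq_one_le (by norm_num)
  have h2 : (Finset.univ.filter (fun a : B => a ^ 2 = 1)).card ≤ 2 :=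
    IsCyclic.card_pow_eq_one_le (by norm_num)
  let f : {x : D // x ^ 2 = 1} → {a : A // a ^ 2 = 1} × {b : B // b ^ 2 = 1} := fun x =>
    (⟨(φ x.1).1, by
      have := congrArg Prod.fst (congrArg φ x.2)
      rw [map_pow, map_one] at this
      exact this⟩,
     ⟨(φ x.1).2, by
      have := congrArg Prod.snd (congrArg φ x.2)
      rw [map_pow, map_one] at this
      exact this⟩)
  have hf : Function.Injective f := by
    intro x y h
    apply Subtype.ext
    apply φ.injective
    exact Prod.ext (congrArg (fun z => (z.1).1) h) (congrArg (fun z => (z.2).1) h)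
  have h3 := Nat.card_le_card_of_injective f hf
  rw [Nat.card_prod, Nat.card_eq_fintype_card (α := {a : A // a ^ 2 = 1}), Fintype.card_subtype,
    Nat.card_eq_fintype_card (α := {b : B // b ^ 2 = 1}), Fintype.card_subtype] at h3
  calc _ ≤ _ := h3
    _ ≤ 2 * 2 := Nat.mul_le_mul h1 h2
    _ = 4 := by norm_num

end aut

open Cfsg Cfsg.Agent.Blk Cfsg.Agent.BlkF Cfsg.Agent.CharBase Cfsg.Agent.Star

variable {M : Ideal AlgInt} [hMp : M.IsPrime] {G : Type u} [Group G] [Fintype G]

/-- 2-blocks whose defect group is abelian with at most four solutions of `x² = 1` -/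
theorem rank2 (hM : IsPModular 2 M) {B : Set (IrrCharacter G)} (hB : IsPBlock M B)
    {D : Subgroup G} (hD : IsDefectGroup 2 M B D) (hab : ∀ x ∈ D, ∀ y ∈ D, x * y = y * x)
    {m : ℕ} (hm : Nat.card D = 2 ^ m) (hm5 : 2 ≤ m)
    (h4 : Nat.card {x : D // x ^ 2 = 1} ≤ 4) :
    (blockRank 2 B = 1 ∧ Nat.card B = 2 ^ m) ∨ (blockRank 2 B = 3 ∧ 3 * Nat.card B = 2 ^ m + 8) := by
  classical
  haveI := charP_kM hM
  haveI hp2 : Fact (Nat.Prime 2) := ⟨Nat.prime_two⟩
  have hdef := (isDefectGroup_iff hM hB D).1 hD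
  obtain ⟨e, hmax, hb⟩ := exists_mmax_on hM hB hdef
  have hcomm : ∀ a b : D, a * b = b * a := fun a b => Subtype.ext (hab a a.2 b b.2)
  have hodd := not_dvd_inertial hmax hab
  have hcardE : Nat.card (inE D e) = (Subgroup.centralizer (D : Set G)).relIndex
      (stab (Subgroup.normalizer (D : Set G)) e) := card_inE
  have h2m : 4 ≤ 2 ^ m := by
    calc 4 = 2 ^ 2 := by norm_num
      _ ≤ 2 ^ m := Nat.pow_le_pow_right (by norm_num) hm5
  have hbot : D ≠ ⊥ := by
    rintro rfl
    rw [Subgroup.card_bot] at hm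
    omega
  haveI : Finite (MulAut D) := finite_mulAut
  have hfreeE : ∀ σ ∈ inE D e, ∀ v : D, v ≠ 1 → σ v = v → σ = 1 := by
    intro σ hσ v hv hfix
    refine aut_free hcomm hm h4 (n := Nat.card (inE D e)) (by rw [hcardE]; exact hodd) ?_ hv hfix
    have h1 : (⟨σ, hσ⟩ : inE D e) ^ Nat.card (inE D e) = 1 := pow_card_eq_one'
    exact congrArg Subtype.val h1
  have hctx : Ctx 2 M D e := by
    refine ⟨hM, hmax, hab, fun x hx z hz hz1 h => ?_⟩
    have h1 := hfreeE (actHom D _ (stab_le _ _) ⟨x, hx⟩) ⟨_, rfl⟩ ⟨z, hz⟩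
      (fun h' => hz1 (congrArg Subtype.val h')) (Subtype.ext h)
    rw [Subgroup.mem_centralizer_iff]
    intro y hy
    have h2 := congrArg (fun σ : MulAut D => ((σ ⟨y, hy⟩ : D) : G)) h1
    simp only [MulAut.one_apply] at h2
    rw [actHom_apply] at h2
    have h3 : x * y = y * x := by
      calc x * y = (x * y * x⁻¹) * x := by group
        _ = y * x := by rw [h2]
    exact h3.symm
  obtain ⟨r, h1, h2, h3, h5, h6⟩ := main hctx hbot hB hb hcardE.symm
  -- the order is at most three
  have hle3 : Nat.card (inE D e) ≤ 3 := by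
    haveI := Fintype.ofFinite D
    haveI := Fintype.ofFinite (inE D e)
    obtain ⟨t, ht⟩ : ∃ t : D, orderOf t = 2 := by
      apply exists_prime_orderOf_dvd_card' 2
      rw [hm]; exact dvd_pow_self 2 (by omega)
    have ht1 : t ≠ 1 := by
      rintro rfl
      rw [orderOf_one] at ht
      omega
    have ht2 : t ^ 2 = 1 := by rw [← ht]; exact pow_orderOf_eq_one t
    have hinj : Function.Injective (fun σ : inE D e => (σ : MulAut D) t) := by
      intro σ τ h
      have h7 : (σ : MulAut D) t = (τ : MulAut D) t := h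
      apply Subtype.ext
      have h8 := hfreeE ((τ : MulAut D)⁻¹ * σ)
        ((inE D e).mul_mem ((inE D e).inv_mem τ.2) σ.2) t ht1
        (by rw [MulAut.mul_apply, h7, ← MulAut.mul_apply, inv_mul_cancel, MulAut.one_apply])
      exact (inv_mul_eq_one.1 h8).symm
    have h7 : (Finset.univ.image (fun σ : inE D e => (σ : MulAut D) t)) ⊆
        (Finset.univ.filter (fun x : D => x ^ 2 = 1)).erase 1 := by
      intro x hx
      rw [Finset.mem_image] at hx
      obtain ⟨σ, -, rfl⟩ := hx
      rw [Finset.mem_erase, Finset.mem_filter]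
      refine ⟨fun h => ht1 ?_, Finset.mem_univ _, ?_⟩
      · rw [← map_one (σ : MulAut D)] at h
        exact (σ : MulAut D).injective h
      · rw [← map_pow, ht2, map_one]
    have h8 := Finset.card_le_card h7
    rw [Finset.card_image_of_injective _ hinj, Finset.card_univ,
      Finset.card_erase_of_mem (by rw [Finset.mem_filter]; exact ⟨Finset.mem_univ _, one_pow 2⟩)]
      at h8
    rw [Nat.card_eq_fintype_card, Fintype.card_subtype] at h4
    rw [Nat.card_eq_fintype_card]
    omega
  rw [hcardE.symm] at hodd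
  have hcases : Nat.card (inE D e) = 1 ∨ Nat.card (inE D e) = 3 := by omega
  have hl := h6 hle3 (arith (a := m) Nat.prime_two hm5 hle3 (by rw [h2, hm]))
  rw [hm] at h2
  rcases hcases with h | h
  · left
    rw [h] at hl h2
    refine ⟨hl, ?_⟩
    omega
  · right
    rw [h] at hl h2
    refine ⟨hl, ?_⟩
    omega

end Cfsg.Agent.AbFree
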